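import Mathlib
import Cfsg.Agent.Lib.GroupB.OrderType

/-! Normal series with cyclic factors, inductively. -/
set_option autoImplicit false
open Cfsg

namespace CfsgLib.Supersolvable
open Subgroup

variable {G : Type*} [Group G]

/-- `T` is reached from `⊥` by a series of normal subgroups of `G` with cyclic factors -/
inductive Reach : Subgroup G → Prop
  | bot : Reach ⊥
  | step {M : Subgroup G} (g : G) : Reach M → (M ⊔ zpowers g).Normal → Reach (M ⊔ zpowers g)

theorem Reach.normal {T : Subgroup G} (h : Reach T) : T.Normal := by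
  cases h with
  | bot => infer_instance
  | step g _ hn => exact hn

theorem iff_reach : IsSupersolvable G ↔ Reach (⊤ : Subgroup G) := by
  constructor
  · rintro ⟨n, H, h0, hl, hn, hc⟩
    rw [← hl]
    generalize Fin.last n = i
    induction i using Fin.induction with
    | zero => rw [h0]; exact Reach.bot
    | succ i ih =>
      obtain ⟨g, hg⟩ := hc i
      rw [hg]
      exact Reach.step g ih (hg ▸ hn _)
  · intro h
    suffices ∀ T : Subgroup G, Reach T → ∃ (n : ℕ) (H : Fin (n + 1) → Subgroup G), H 0 = ⊥ ∧ H (Fin.last n) = T ∧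
        (∀ i, (H i).Normal) ∧ ∀ i : Fin n, ∃ g : G, H i.succ = H i.castSucc ⊔ zpowers g from this ⊤ h
    intro T hT
    induction hT with
    | bot => exact ⟨0, fun _ => ⊥, rfl, rfl, fun _ => inferInstance, fun i => i.elim0⟩
    | @step M g _ hn ih =>
      obtain ⟨n, H, h0, hl, hN, hc⟩ := ih
      refine ⟨n + 1, Fin.snoc H (M ⊔ zpowers g), ?_, Fin.snoc_last _ _, fun i => ?_, fun i => ?_⟩
      · rw [show (0 : Fin (n + 1 + 1)) = Fin.castSucc 0 from rfl, Fin.snoc_castSucc, h0]
      · induction i using Fin.lastCases with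
        | last => rw [Fin.snoc_last]; exact hn
        | cast i => rw [Fin.snoc_castSucc]; exact hN i
      · induction i using Fin.lastCases with
        | last => exact ⟨g, by rw [Fin.succ_last, Fin.snoc_last, Fin.snoc_castSucc, hl]⟩
        | cast i =>
          obtain ⟨g, hg⟩ := hc i
          exact ⟨g, by rw [← Fin.castSucc_succ, Fin.snoc_castSucc, Fin.snoc_castSucc, hg]⟩

theorem reach_inf {T : Subgroup G} (hT : Reach T) (H : Subgroup G) : Reach (T.subgroupOf H) := by
  induction hT with
  | bot => rw [bot_subgroupOf]; exact Reach.bot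
  | @step M g hM hn ih =>
    haveI := hM.normal
    set N := M ⊔ zpowers g with hN
    let f : ↥(N.subgroupOf H) →* G ⧸ M := (QuotientGroup.mk' M).comp (H.subtype.comp (N.subgroupOf H).subtype)
    have hle : f.range ≤ zpowers (QuotientGroup.mk' M g) := by
      rintro _ ⟨x, rfl⟩
      have : (x : G) ∈ N := x.2
      have h2 := mem_map_of_mem (QuotientGroup.mk' M) this
      have h4 : N.map (QuotientGroup.mk' M) = zpowers (QuotientGroup.mk' M g) := by
        rw [hN, Subgroup.map_sup, MonoidHom.map_zpowers, (map_eq_bot_iff M).2 (QuotientGroup.ker_mk' M).ge, bot_sup_eq]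
      rwa [h4] at h2
    haveI : IsCyclic f.range := isCyclic_of_injective _ (inclusion_injective hle)
    obtain ⟨⟨_, x, rfl⟩, hx⟩ := IsCyclic.exists_generator (α := f.range)
    have heq : N.subgroupOf H = M.subgroupOf H ⊔ zpowers (x : ↥H) := by
      refine le_antisymm (fun y hy => ?_) (sup_le (fun y hy => mem_sup_left hy) (zpowers_le.2 x.2))
      obtain ⟨k, hk⟩ := hx ⟨f ⟨y, hy⟩, _, rfl⟩
      have hk' : f x ^ k = f ⟨y, hy⟩ := congrArg Subtype.val hk
      have h3 : ((x : ↥H) ^ k)⁻¹ * y ∈ M.subgroupOf H := by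
        rw [mem_subgroupOf, ← QuotientGroup.eq_one_iff, ← QuotientGroup.mk'_apply, Subgroup.coe_mul, Subgroup.coe_inv, SubgroupClass.coe_zpow, map_mul, map_inv, map_zpow]
        show (f x ^ k)⁻¹ * f ⟨y, hy⟩ = 1
        rw [hk', inv_mul_cancel]
      have h4 := Subgroup.mul_mem (M.subgroupOf H ⊔ zpowers (x : ↥H)) (mem_sup_right ⟨k, rfl⟩) (mem_sup_left h3)
      rwa [mul_inv_cancel_left] at h4
    rw [heq]
    exact Reach.step _ ih (heq ▸ hn.subgroupOf H)

theorem reach_comap {N : Subgroup G} [N.Normal] (hN : Reach N) {T : Subgroup (G ⧸ N)} (hT : Reach T) :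
    Reach (T.comap (QuotientGroup.mk' N)) := by
  induction hT with
  | bot => rwa [MonoidHom.comap_bot, QuotientGroup.ker_mk']
  | @step M g hM hn ih =>
    obtain ⟨g', rfl⟩ := QuotientGroup.mk'_surjective N g
    have : (M ⊔ zpowers (QuotientGroup.mk' N g')).comap (QuotientGroup.mk' N) = M.comap (QuotientGroup.mk' N) ⊔ zpowers g' := by
      have h1 : (M.comap (QuotientGroup.mk' N) ⊔ zpowers g').map (QuotientGroup.mk' N) = M ⊔ zpowers (QuotientGroup.mk' N g') := by
        rw [Subgroup.map_sup, MonoidHom.map_zpowers, map_comap_eq_self_of_surjective (QuotientGroup.mk'_surjective N)]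
      rw [← h1, comap_map_eq_self]
      exact le_sup_of_le_left (MonoidHom.ker_le_comap _ _)
    rw [this]
    exact Reach.step _ ih (this ▸ hn.comap _)

theorem of_reach_quotient {N : Subgroup G} [N.Normal] (hN : Reach N) (h : IsSupersolvable (G ⧸ N)) :
    IsSupersolvable G := by
  rw [iff_reach]
  have := reach_comap hN (iff_reach.1 h)
  rwa [comap_top] at this

end CfsgLib.Supersolvable
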